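import Cfsg.Agent.Uni.H

/-! The `p`-neighbour of `ℤ⁵` at an isotropic vector. -/

set_option autoImplicit false

namespace CF.Uni
open Matrix

/-- the lattice `p N`, `N` the neighbour of `ℤ⁵` at `E` -/
def InL (p : ℤ) (E a : Fin 5 → ℤ) : Prop := (∀ i, p ∣ a i - a 0 * E i) ∧ p ^ 2 ∣ a ⬝ᵥ E

theorem InL.dot {p : ℤ} {E a b : Fin 5 → ℤ} (hE : p ^ 2 ∣ E ⬝ᵥ E) (ha : InL p E a)
    (hb : InL p E b) : p ^ 2 ∣ a ⬝ᵥ b := by
  have e : a ⬝ᵥ b = a 0 * (b ⬝ᵥ E) + b 0 * (a ⬝ᵥ E) - a 0 * b 0 * (E ⬝ᵥ E) +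
      ∑ i, (a i - a 0 * E i) * (b i - b 0 * E i) := by
    simp only [dotProduct, Fin.sum_univ_five]; ring
  rw [e]
  refine dvd_add (dvd_sub (dvd_add (hb.2.mul_left _) (ha.2.mul_left _)) (hE.mul_left _)) ?_
  exact Finset.dvd_sum fun i _ => by rw [sq]; exact mul_dvd_mul (ha.1 i) (hb.1 i)

theorem InL.mulVec {p : ℤ} {E : Fin 5 → ℤ} {M : Matrix (Fin 5) (Fin 5) ℤ}
    (h : ∀ j, InL p E (fun i => M i j)) (u : Fin 5 → ℤ) : InL p E (M *ᵥ u) := by
  refine ⟨fun i => ?_, ?_⟩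
  · have : (M *ᵥ u) i - (M *ᵥ u) 0 * E i = ∑ j, (M i j - M 0 j * E i) * u j := by
      simp only [Matrix.mulVec, dotProduct, Fin.sum_univ_five]; ring
    rw [this]
    exact Finset.dvd_sum fun j _ => ((h j).1 i).mul_right _
  · have : (M *ᵥ u) ⬝ᵥ E = ∑ j, ((fun i => M i j) ⬝ᵥ E) * u j := by
      simp only [Matrix.mulVec, dotProduct, Fin.sum_univ_five]; ring
    rw [this]
    exact Finset.dvd_sum fun j _ => (h j).2.mul_right _

theorem exists_basis {p : ℤ} {E : Fin 5 → ℤ} (h0 : E 0 = 1) (h1 : IsCoprime p (E 1))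
    (hE : p ^ 2 ∣ E ⬝ᵥ E) :
    ∃ M : Matrix (Fin 5) (Fin 5) ℤ, (∀ j, InL p E (fun i => M i j)) ∧ M.det = p ^ 5 := by
  obtain ⟨k, d, hk⟩ := h1
  refine ⟨!![p ^ 2, d - k * p * E 1, -p * E 2, -p * E 3, -p * E 4;
    0, 1, 0, 0, 0; 0, d * E 2, p, 0, 0; 0, d * E 3, 0, p, 0; 0, d * E 4, 0, 0, p], ?_, ?_⟩
  · intro j
    have e1 : (1 : ℤ) = k * p + d * E 1 := hk.symm
    fin_cases j
    · refine ⟨fun i => ?_, ?_⟩
      · fin_cases i <;> simp [h0, sq, mul_assoc]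
      · simp [dotProduct, Fin.sum_univ_five, h0]
    · refine ⟨fun i => ?_, ?_⟩
      · fin_cases i
        · simp [h0]
        · exact ⟨k + k * E 1 ^ 2, by simp; linear_combination -hk⟩
        · exact ⟨k * E 1 * E 2, by simp; ring⟩
        · exact ⟨k * E 1 * E 3, by simp; ring⟩
        · exact ⟨k * E 1 * E 4, by simp; ring⟩
      · obtain ⟨m, hm⟩ := hE
        refine ⟨d * m, ?_⟩
        simp only [dotProduct, Fin.sum_univ_five, h0] at hm ⊢
        simp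
        linear_combination d * hm - E 1 * hk
    all_goals
      refine ⟨fun i => ?_, ?_⟩
      · fin_cases i <;> simp [h0, mul_assoc, dvd_add, dvd_mul_right]
      · simp [dotProduct, Fin.sum_univ_five, h0]
  · simp [det_succ_column_zero, Fin.sum_univ_succ]; ring

theorem exists_unit {p : ℤ} (hp : Odd p) {E : Fin 5 → ℤ} (h0 : E 0 = 1) (h1 : IsCoprime p (E 1))
    (hE : p ^ 2 ∣ E ⬝ᵥ E) : ∃ a, InL p E a ∧ a ⬝ᵥ a = p ^ 2 ∧ Odd (a 0) := by
  obtain ⟨M, hM, hd⟩ := exists_basis h0 h1 hE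
  have p0 : (p : ℚ) ≠ 0 := by
    have : p ≠ 0 := by rintro rfl; simp at hp
    exact_mod_cast this
  have dm : (cm M).det = (p : ℚ) ^ 5 := by
    have : (cm M).det = (M.det : ℚ) := ((Int.castRingHom ℚ).map_det M).symm
    rw [this, hd]; push_cast; rfl
  set I : Matrix (Fin 5) (Fin 5) ℚ := ((p : ℚ) ^ 2)⁻¹ • 1 with hI
  have bI : ∀ x y, B I x y = ((p : ℚ) ^ 2)⁻¹ * (x ⬝ᵥ y) := fun x y => by
    simp [B, hI, smul_mulVec]
  have cd : ∀ x y : Fin 5 → ℤ, c x ⬝ᵥ c y = ((x ⬝ᵥ y : ℤ) : ℚ) := fun x y => by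
    simp [c, dotProduct]
  have tr : ∀ x y, B ((cm M)ᵀ * I * cm M) (c x) (c y) =
      ((p : ℚ) ^ 2)⁻¹ * (((M *ᵥ x) ⬝ᵥ (M *ᵥ y) : ℤ) : ℚ) := fun x y => by
    rw [B_mul, ← c_mul, ← c_mul, bI, cd]
  have hIp : PD I := fun x hx => by
    rw [bI]
    have : 0 < x ⬝ᵥ x := lt_of_le_of_ne (Finset.sum_nonneg fun i _ => mul_self_nonneg _)
      (fun e => hx (dotProduct_self_eq_zero.mp e.symm))
    positivity
  obtain ⟨u, hu⟩ := ortho 5 le_rfl ((cm M)ᵀ * I * cm M)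
    (symm_mul (by rw [hI]; exact isSymm_one.smul _) _) (hIp.mul (by rw [dm]; positivity))
    (fun x y => by
      obtain ⟨z, hz⟩ := (InL.mulVec hM x).dot hE (InL.mulVec hM y)
      exact ⟨z, by rw [tr, hz]; push_cast; field_simp⟩)
    (by rw [det_mul, det_mul, det_transpose, dm, hI, det_smul, det_one]; simp; field_simp)
  have hu' : ∀ i j, (M *ᵥ u i) ⬝ᵥ (M *ᵥ u j) = if i = j then p ^ 2 else 0 := fun i j => by
    have := hu i j
    rw [tr, inv_mul_eq_iff_eq_mul₀ (by positivity)] at this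
    split_ifs at this ⊢
    · exact_mod_cast (by simpa using this : (((M *ᵥ u i) ⬝ᵥ (M *ᵥ u j) : ℤ) : ℚ) = p ^ 2)
    · exact_mod_cast (by simpa using this : (((M *ᵥ u i) ⬝ᵥ (M *ᵥ u j) : ℤ) : ℚ) = 0)
  let A : Matrix (Fin 5) (Fin 5) ℤ := of fun i j => (M *ᵥ u i) j
  have hA : A * Aᵀ = (p ^ 2) • 1 := by
    ext i j
    have := hu' i j
    simp only [dotProduct] at this
    simp [A, mul_apply, this, one_apply]
  by_contra hn
  push Not at hn
  have ev : ∀ i, (2 : ℤ) ∣ A i 0 := fun i =>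
    even_iff_two_dvd.mp (Int.not_odd_iff_even.mp (hn (M *ᵥ u i) (InL.mulVec hM _) (by simpa using hu' i i)))
  have h2 : (2 : ℤ) ∣ A.det := by
    rw [det_succ_column_zero]
    exact Finset.dvd_sum fun i _ => ((ev i).mul_left _).mul_right _
  have h3 := congrArg det hA
  rw [det_mul, det_smul, det_one, mul_one] at h3
  have h4 : (2 : ℤ) ∣ (p ^ 2) ^ Fintype.card (Fin 5) := h3 ▸ h2.mul_right _
  exact Int.not_even_iff_odd.mpr hp.pow.pow (even_iff_two_dvd.mpr h4)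

theorem parity {p a b c d e : ℤ} (hp : Odd p) (ha : Odd a)
    (h : a * a + b * b + c * c + d * d + e * e = p ^ 2) : Even b ∧ Even c ∧ Even d ∧ Even e := by
  have k : ∀ x : ℤ, (Even x ∧ x * x % 4 = 0) ∨ (Odd x ∧ x * x % 8 = 1) := fun x => by
    rcases Int.even_or_odd x with hx | hx
    · left; refine ⟨hx, ?_⟩
      obtain ⟨y, rfl⟩ := hx
      have : (y + y) * (y + y) = 4 * (y * y) := by ring
      omega
    · right; refine ⟨hx, ?_⟩
      obtain ⟨y, rfl⟩ := hx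
      obtain ⟨z, hz⟩ := Int.even_mul_succ_self y
      have : (2 * y + 1) * (2 * y + 1) = 8 * z + 1 := by linear_combination 4 * hz
      omega
  rw [sq] at h
  have no : ∀ x : ℤ, Odd x → x * x % 8 = 1 := fun x hx =>
    ((k x).resolve_left fun h => Int.not_even_iff_odd.mpr hx h.1).2
  have h1 := no p hp
  have h2 := no a ha
  rcases k b with hb | hb <;> rcases k c with hc | hc <;> rcases k d with hd | hd <;>
    rcases k e with he | he <;>
    first
    | exact ⟨hb.1, hc.1, hd.1, he.1⟩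
    | (exfalso; have := hb.2; have := hc.2; have := hd.2; have := he.2; omega)

theorem vma_le (p : ℕ) [hp : Fact p.Prime] (h2 : p ≠ 2) (n : ℤ) :
    (n : ZMod p).valMinAbs ^ 2 < n ^ 2 ∨ (n : ZMod p).valMinAbs = n := by
  set m := (n : ZMod p).valMinAbs with hm
  have h1 : (p : ℤ) ∣ n - m := by
    rw [← ZMod.intCast_zmod_eq_zero_iff_dvd]; push_cast; simp [hm]
  have h3 := ZMod.valMinAbs_mem_Ioc (n : ZMod p)
  rw [← hm] at h3
  obtain ⟨k, hk⟩ := h1
  obtain ⟨r, hr⟩ := hp.out.odd_of_ne_two h2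
  have h4 : -(p : ℤ) < m * 2 := h3.1
  have h5 : m * 2 < p := lt_of_le_of_ne h3.2 (by omega)
  have e : n = m + p * k := by linarith
  rcases lt_trichotomy k 0 with h | h | h
  · left; rw [e]
    have : 0 < (p : ℤ) := by exact_mod_cast hp.out.pos
    have h6 : 0 < -(p * k) := by nlinarith
    have h7 : 0 < -(p * k) - m * 2 := by nlinarith
    nlinarith [mul_pos h6 h7]
  · right; rw [e, h]; simp
  · left; rw [e]
    have : 0 < (p : ℤ) := by exact_mod_cast hp.out.pos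
    have h6 : 0 < p * k := by nlinarith
    have h7 : 0 < p * k + m * 2 := by nlinarith
    nlinarith [mul_pos h6 h7]

theorem key (p : ℕ) [Fact p.Prime] (hp : p ≠ 2) (D : Fin 4 → ℤ) (h1 : ¬ (p:ℤ) ∣ D 0)
    (h2 : (p:ℤ)^2 ∣ 1 + ∑ i, D i ^ 2) :
    ∃ t : ℤ, t^2 + ∑ i, ((t * D i : ℤ) : ZMod p).valMinAbs ^ 2 < p * t ∨
      (t^2 + ∑ i, ((t * D i : ℤ) : ZMod p).valMinAbs ^ 2 = p * t ∧
        t + ∑ i, ((t * D i : ℤ) : ZMod p).valMinAbs * D i ≠ 0 ∧
        t + ∑ i, ((t * D i : ℤ) : ZMod p).valMinAbs * D i ≠ p) := by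
  have pp : p.Prime := Fact.out
  have po : Odd (p : ℤ) := by exact_mod_cast pp.odd_of_ne_two hp
  have ip : Prime (p : ℤ) := Nat.prime_iff_prime_int.mp pp
  obtain ⟨a, ha, hn, ho⟩ := exists_unit po (E := Fin.cons 1 D) rfl
    ((Irreducible.coprime_iff_not_dvd ip.irreducible).mpr h1)
    (by simpa [dotProduct, Fin.sum_univ_succ, sq] using h2)
  obtain ⟨⟨n1, e1⟩, ⟨n2, e2⟩, ⟨n3, e3⟩, ⟨n4, e4⟩⟩ :=
    parity po ho (by simpa [dotProduct, Fin.sum_univ_five] using hn :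
      a 0 * a 0 + a 1 * a 1 + a 2 * a 2 + a 3 * a 3 + a 4 * a 4 = (p : ℤ) ^ 2)
  obtain ⟨t, ht⟩ := po.sub_odd ho
  let n : Fin 4 → ℤ := ![-n1, -n2, -n3, -n4]
  have hn' : ∀ i : Fin 4, a i.succ = -2 * n i := fun i => by
    fin_cases i <;> simp [n] <;> omega
  have a0 : a 0 = p - 2 * t := by linarith
  have hc : ∀ i, ((t * D i : ℤ) : ZMod p) = (n i : ZMod p) := fun i => by
    rw [ZMod.intCast_eq_intCast_iff_dvd_sub]
    have h3 := ha.1 i.succ
    rw [hn', a0, Fin.cons_succ] at h3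
    have h4 : (p : ℤ) ∣ 2 * (n i - t * D i) := by
      have : 2 * (n i - t * D i) = -(-2 * n i - (p - 2 * t) * D i) - p * D i := by ring
      rw [this]; exact dvd_sub h3.neg_right (dvd_mul_right _ _)
    refine (ip.dvd_or_dvd h4).resolve_left fun h => hp ?_
    exact (Nat.prime_dvd_prime_iff_eq pp Nat.prime_two).mp (by exact_mod_cast h)
  have hs : t ^ 2 + ∑ i, n i ^ 2 = p * t := by
    rw [dotProduct, Fin.sum_univ_succ] at hn
    simp only [hn', a0, Fin.sum_univ_four] at hn ⊢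
    linarith
  have hd := ha.2
  rw [dotProduct, Fin.sum_univ_succ] at hd
  simp only [hn', a0, Fin.cons_succ, Fin.cons_zero] at hd
  refine ⟨t, ?_⟩
  simp only [hc]
  by_cases hv : ∀ i, (n i : ZMod p).valMinAbs = n i
  · right
    simp only [hv]
    have p1 : ¬ (p : ℤ) ^ 2 ∣ p := fun h => by
      have h3 : (0 : ℤ) < p := by exact_mod_cast pp.pos
      have h4 : (2 : ℤ) ≤ p := by exact_mod_cast pp.two_le
      have := Int.le_of_dvd h3 h
      nlinarith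
    refine ⟨hs, fun e => p1 ?_, fun e => p1 ?_⟩
    · have : (p - 2 * t) * 1 + ∑ i, -2 * n i * D i = (p : ℤ) := by
        simp only [Fin.sum_univ_four] at e ⊢; linarith
      rwa [this] at hd
    · have : (p - 2 * t) * 1 + ∑ i, -2 * n i * D i = -(p : ℤ) := by
        simp only [Fin.sum_univ_four] at e ⊢; linarith
      rwa [this, dvd_neg] at hd
  · left
    push Not at hv
    obtain ⟨j, hj⟩ := hv
    rw [← hs]
    refine add_lt_add_of_le_of_lt le_rfl (Finset.sum_lt_sum (fun i _ => ?_) ⟨j, Finset.mem_univ _, ?_⟩)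
    · rcases vma_le p hp (n i) with h | h
      · exact h.le
      · rw [h]
    · exact (vma_le p hp (n j)).resolve_right hj

end CF.Uni

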