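import Mathlib

/-! Hermite's bound and unimodular forms of rank at most five. -/

set_option autoImplicit false

namespace CF.Uni
open Matrix

/-- the bilinear form of a matrix on integral vectors -/
def B {n : ℕ} (G : Matrix (Fin n) (Fin n) ℚ) (x y : Fin n → ℚ) : ℚ := x ⬝ᵥ G *ᵥ y

/-- integral vectors as rational ones -/
def c {n : ℕ} (x : Fin n → ℤ) : Fin n → ℚ := fun i => (x i : ℚ)

/-- integral matrices as rational ones -/
def cm {n : ℕ} (U : Matrix (Fin n) (Fin n) ℤ) : Matrix (Fin n) (Fin n) ℚ :=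
  U.map (Int.castRingHom ℚ)

/-- the Schur complement of the top left entry -/
def schur {n : ℕ} (G : Matrix (Fin (n + 1)) (Fin (n + 1)) ℚ) : Matrix (Fin n) (Fin n) ℚ :=
  of fun i j => G i.succ j.succ - G i.succ 0 * G 0 j.succ / G 0 0

/-- the linear form of the first row -/
def ell {n : ℕ} (G : Matrix (Fin (n + 1)) (Fin (n + 1)) ℚ) (x : Fin n → ℚ) : ℚ :=
  (∑ j, G 0 j.succ * x j) / G 0 0

theorem B_cons {n : ℕ} {G : Matrix (Fin (n + 1)) (Fin (n + 1)) ℚ} (hs : G.IsSymm)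
    (h0 : G 0 0 ≠ 0) (a b : ℚ) (x y : Fin n → ℚ) :
    B G (Fin.cons a x) (Fin.cons b y) =
      G 0 0 * (a + ell G x) * (b + ell G y) + B (schur G) x y := by
  have e : ∀ i : Fin n, G i.succ 0 = G 0 i.succ := fun i => hs.apply _ _
  have k : ∑ i, x i * ∑ j, (G i.succ j.succ - G 0 i.succ * G 0 j.succ / G 0 0) * y j =
      ∑ i, x i * ∑ j, G i.succ j.succ * y j -
        (∑ i, G 0 i.succ * x i) * (∑ j, G 0 j.succ * y j) / G 0 0 := by
    rw [Finset.sum_mul, Finset.sum_div, ← Finset.sum_sub_distrib]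
    refine Finset.sum_congr rfl fun i _ => ?_
    rw [Finset.mul_sum, Finset.mul_sum, Finset.mul_sum, Finset.sum_div, ← Finset.sum_sub_distrib]
    exact Finset.sum_congr rfl fun j _ => by ring
  have k2 : ∑ i, x i * (G 0 i.succ * b + ∑ j, G i.succ j.succ * y j) =
      (∑ i, G 0 i.succ * x i) * b + ∑ i, x i * ∑ j, G i.succ j.succ * y j := by
    rw [Finset.sum_mul, ← Finset.sum_add_distrib]
    exact Finset.sum_congr rfl fun j _ => by ring
  simp only [B, dotProduct, mulVec, Fin.sum_univ_succ, Fin.cons_zero, Fin.cons_succ, schur, ell,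
    of_apply, e]
  rw [k, k2]
  field_simp
  ring

theorem det_schur {n : ℕ} {G : Matrix (Fin (n + 1)) (Fin (n + 1)) ℚ} (h0 : G 0 0 ≠ 0) :
    G.det = G 0 0 * (schur G).det := by
  let H : Matrix (Fin (n + 1)) (Fin (n + 1)) ℚ :=
    of fun i j => Fin.cases (G 0 j) (fun i' => G i'.succ j - G i'.succ 0 * G 0 j / G 0 0) i
  have e : G.det = H.det := by
    refine det_eq_of_forall_row_eq_smul_add_const
      (fun i => Fin.cases 0 (fun i' => G i'.succ 0 / G 0 0) i) 0 rfl ?_
    intro i j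
    refine Fin.cases ?_ (fun i' => ?_) i
    · simp [H]
    · simp only [H, of_apply, Fin.cases_succ, Fin.cases_zero]; ring
  rw [e, det_succ_column_zero, Fin.sum_univ_succ]
  have z : ∀ i : Fin n, H i.succ 0 = 0 := fun i => by
    simp only [H, of_apply, Fin.cases_succ]; field_simp; ring
  simp only [z, mul_zero, zero_mul, Finset.sum_const_zero, add_zero]
  have : H.submatrix (Fin.succAbove 0) Fin.succ = schur G := by
    ext i j; simp [H, schur]
  rw [this]; simp [H]

theorem schur_symm {n : ℕ} {G : Matrix (Fin (n + 1)) (Fin (n + 1)) ℚ} (hs : G.IsSymm) :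
    (schur G).IsSymm := by
  refine IsSymm.ext fun i j => ?_
  simp only [schur, of_apply]
  rw [hs.apply i.succ j.succ, hs.apply i.succ 0, hs.apply 0 j.succ]; ring

/-- positive definite -/
def PD {n : ℕ} (G : Matrix (Fin n) (Fin n) ℚ) : Prop := ∀ x : Fin n → ℚ, x ≠ 0 → 0 < B G x x

theorem B_single {n : ℕ} (G : Matrix (Fin n) (Fin n) ℚ) (i j : Fin n) :
    B G (Pi.single i 1) (Pi.single j 1) = G i j := by
  simp [B]

theorem PD.pos {n : ℕ} {G : Matrix (Fin n) (Fin n) ℚ} (h : PD G) (i : Fin n) : 0 < G i i := by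
  rw [← B_single G i i]
  exact h _ (fun e => by simpa using congrFun e i)

theorem PD.schur {n : ℕ} {G : Matrix (Fin (n + 1)) (Fin (n + 1)) ℚ} (hs : G.IsSymm) (h : PD G) :
    PD (schur G) := by
  intro x hx
  have := h (Fin.cons (-ell G x) x) (fun e => hx (funext fun i => by simpa using congrFun e i.succ))
  rw [B_cons hs (h.pos 0).ne'] at this
  simpa using this

theorem B_mul {n : ℕ} (G U : Matrix (Fin n) (Fin n) ℚ) (x y : Fin n → ℚ) :
    B (Uᵀ * G * U) x y = B G (U *ᵥ x) (U *ᵥ y) := by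
  simp only [B]
  rw [← mulVec_mulVec, ← mulVec_mulVec, dotProduct_mulVec, vecMul_transpose]

theorem c_mul {n : ℕ} (U : Matrix (Fin n) (Fin n) ℤ) (x : Fin n → ℤ) :
    c (U *ᵥ x) = cm U *ᵥ c x := by
  funext i; simp [c, cm, mulVec, dotProduct]

theorem det_cm {n : ℕ} {U : Matrix (Fin n) (Fin n) ℤ} (h : IsUnit U.det) : (cm U).det ^ 2 = 1 := by
  have : (cm U).det = (U.det : ℚ) := ((Int.castRingHom ℚ).map_det U).symm
  rw [this]
  rcases Int.isUnit_iff.mp h with e | e <;> rw [e] <;> norm_num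

theorem PD.mul {n : ℕ} {G U : Matrix (Fin n) (Fin n) ℚ} (h : PD G) (hU : U.det ≠ 0) :
    PD (Uᵀ * G * U) := by
  intro x hx
  rw [B_mul]
  exact h _ fun e => hx (eq_zero_of_mulVec_eq_zero hU e)

theorem symm_mul {n : ℕ} {G : Matrix (Fin n) (Fin n) ℚ} (h : G.IsSymm)
    (U : Matrix (Fin n) (Fin n) ℚ) : (Uᵀ * G * U).IsSymm := by
  unfold IsSymm at *
  rw [transpose_mul, transpose_mul, transpose_transpose, h, Matrix.mul_assoc]

/-- a column of a unimodular matrix -/
def Prim {n : ℕ} (x : Fin n → ℤ) : Prop :=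
  ∃ U : Matrix (Fin n) (Fin n) ℤ, IsUnit U.det ∧ ∃ j, x = U *ᵥ Pi.single j 1

theorem Prim.zero {n : ℕ} {x : Fin (n + 1) → ℤ} (h : Prim x) :
    ∃ U : Matrix (Fin (n + 1)) (Fin (n + 1)) ℤ, IsUnit U.det ∧ x = U *ᵥ Pi.single 0 1 := by
  obtain ⟨U, hU, j, rfl⟩ := h
  refine ⟨U.submatrix id (Equiv.swap 0 j), ?_, ?_⟩
  · rw [det_permute']
    exact (Units.isUnit _).mul hU
  · funext i; simp

theorem Prim.mul {n : ℕ} {x : Fin n → ℤ} (h : Prim x) {U : Matrix (Fin n) (Fin n) ℤ}
    (hU : IsUnit U.det) : Prim (U *ᵥ x) := by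
  obtain ⟨V, hV, j, rfl⟩ := h
  exact ⟨U * V, by rw [det_mul]; exact hU.mul hV, j, by rw [mulVec_mulVec]⟩

theorem Prim.cons {n : ℕ} {y : Fin n → ℤ} (h : Prim y) (a : ℤ) :
    Prim (Fin.cons a y : Fin (n + 1) → ℤ) := by
  obtain ⟨V, hV, j, rfl⟩ := h
  let W : Matrix (Fin (n + 1)) (Fin (n + 1)) ℤ :=
    of fun i k => Fin.cases (Fin.cases 1 (fun _ => a) k)
      (fun i' => Fin.cases 0 (fun k' => V i' k') k) i
  refine ⟨W, ?_, j.succ, ?_⟩
  · rw [det_succ_column_zero, Fin.sum_univ_succ]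
    have : W.submatrix (Fin.succAbove 0) Fin.succ = V := by ext i k; simp [W]
    rw [this]
    simpa [W] using hV
  · funext i
    refine Fin.cases ?_ (fun i' => ?_) i <;> simp [W]

theorem Prim.ne {n : ℕ} {x : Fin n → ℤ} (h : Prim x) : c x ≠ 0 := by
  obtain ⟨U, hU, j, rfl⟩ := h
  intro e
  rw [c_mul] at e
  have := eq_zero_of_mulVec_eq_zero (fun z => by simpa [z] using det_cm hU) e
  simpa [c] using congrFun this j

theorem exists_den {n : ℕ} (G : Matrix (Fin n) (Fin n) ℚ) :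
    ∃ N : ℕ, 0 < N ∧ ∀ x : Fin n → ℤ, ∃ z : ℤ, (N : ℚ) * B G (c x) (c x) = z := by
  refine ⟨∏ p : Fin n × Fin n, (G p.1 p.2).den, Finset.prod_pos fun p _ => (G p.1 p.2).den_pos, ?_⟩
  have h : ∀ i j, ∃ z : ℤ, ((∏ p : Fin n × Fin n, (G p.1 p.2).den : ℕ) : ℚ) * G i j = z := by
    intro i j
    obtain ⟨k, hk⟩ := Finset.dvd_prod_of_mem (fun p : Fin n × Fin n => (G p.1 p.2).den)
      (Finset.mem_univ (i, j))
    refine ⟨k * (G i j).num, ?_⟩
    rw [hk]; push_cast
    rw [← Rat.mul_den_eq_num]; ring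
  choose z hz using h
  intro x
  refine ⟨∑ i, ∑ j, x i * z i j * x j, ?_⟩
  simp only [B, dotProduct, mulVec, c, Finset.mul_sum]
  push_cast
  refine Finset.sum_congr rfl fun i _ => Finset.sum_congr rfl fun j _ => ?_
  rw [← hz]; push_cast; ring

/-- Hermite's constants -/
def cc : ℕ → ℚ
  | 0 => 1
  | n + 1 => (4 / 3) ^ (n + 1) * cc n

theorem herm : ∀ (n : ℕ) (G : Matrix (Fin (n + 1)) (Fin (n + 1)) ℚ), G.IsSymm → PD G →
    ∃ x : Fin (n + 1) → ℤ, Prim x ∧ B G (c x) (c x) ^ (n + 1) ≤ cc n * G.det := by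
  intro n
  induction n with
  | zero =>
    intro G _ _
    refine ⟨Pi.single 0 1, ⟨1, by simp, 0, (one_mulVec _).symm⟩, ?_⟩
    have : c (Pi.single (0 : Fin 1) (1 : ℤ)) = Pi.single 0 1 := by
      funext i; fin_cases i; simp [c]
    rw [this, B_single]; simp [cc]
  | succ n ih =>
    intro G hs hp
    obtain ⟨N, hN, hz⟩ := exists_den G
    have hN' : (0 : ℚ) < N := by exact_mod_cast hN
    have nat : ∀ x, Prim x → ∃ m : ℕ, (N : ℚ) * B G (c x) (c x) = m := by
      intro x hx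
      obtain ⟨z, e⟩ := hz x
      have : (0 : ℚ) < z := e ▸ mul_pos hN' (hp _ hx.ne)
      have h0 : 0 ≤ z := by exact_mod_cast this.le
      exact ⟨z.toNat, by rw [e]; exact_mod_cast (Int.toNat_of_nonneg h0).symm⟩
    have ex : ∃ m : ℕ, ∃ x, Prim x ∧ (N : ℚ) * B G (c x) (c x) = m := by
      have h1 : Prim (Pi.single 0 1 : Fin (n + 2) → ℤ) := ⟨1, by simp, 0, (one_mulVec _).symm⟩
      obtain ⟨m, e⟩ := nat _ h1
      exact ⟨m, _, h1, e⟩
    classical
    obtain ⟨x, hx, ex0⟩ := Nat.find_spec ex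
    have hmin : ∀ y, Prim y → B G (c x) (c x) ≤ B G (c y) (c y) := by
      intro y hy
      obtain ⟨m, e⟩ := nat y hy
      have : (Nat.find ex : ℚ) ≤ m := by exact_mod_cast Nat.find_min' ex ⟨y, hy, e⟩
      rw [← ex0, ← e] at this
      exact le_of_mul_le_mul_left this hN'
    refine ⟨x, hx, ?_⟩
    obtain ⟨U, hU, rfl⟩ := hx.zero
    have hd := det_cm hU
    set H := (cm U)ᵀ * G * cm U with hH
    have hHs : H.IsSymm := symm_mul hs _
    have hHp : PD H := hp.mul (fun z => by simp [z] at hd)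
    have hdet : H.det = G.det := by
      rw [hH, det_mul, det_mul, det_transpose]; linear_combination G.det * hd
    have e0 : B G (c (U *ᵥ Pi.single 0 1)) (c (U *ᵥ Pi.single 0 1)) = H 0 0 := by
      have : c (Pi.single (0 : Fin (n + 2)) (1 : ℤ)) = Pi.single 0 1 := by
        funext i; by_cases h : i = 0 <;> simp [c, h]
      rw [c_mul, ← B_mul, this, B_single]
    obtain ⟨y, hy, hb⟩ := ih (schur H) (schur_symm hHs) (hHp.schur hHs)
    have ha := hHp.pos 0
    have h1 := hmin _ ((hy.cons (-round (ell H (c y)))).mul hU)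
    have ec : c (Fin.cons (-round (ell H (c y))) y : Fin (n + 2) → ℤ) =
        Fin.cons (-(round (ell H (c y)) : ℚ)) (c y) := by
      funext i; refine Fin.cases ?_ (fun i' => ?_) i <;> simp [c]
    rw [e0, c_mul, ← B_mul, ← hH, ec, B_cons hHs ha.ne'] at h1
    have hr := abs_sub_round (ell H (c y))
    have hr2 : (-(round (ell H (c y)) : ℚ) + ell H (c y)) ^ 2 ≤ 1 / 4 := by
      have := abs_le.mp hr
      nlinarith [this.1, this.2]
    have h2 : 3 / 4 * H 0 0 ≤ B (schur H) (c y) (c y) := by nlinarith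
    have h3 : (3 / 4 * H 0 0) ^ (n + 1) ≤ cc n * (schur H).det :=
      (pow_le_pow_left₀ (by positivity) h2 _).trans hb
    rw [e0, ← hdet, det_schur ha.ne', cc]
    have e4 : H 0 0 ^ (n + 1 + 1) = (4 / 3) ^ (n + 1) * H 0 0 * (3 / 4 * H 0 0) ^ (n + 1) := by
      have : ((4 : ℚ) / 3) ^ (n + 1) * (3 / 4) ^ (n + 1) = 1 := by rw [← mul_pow]; norm_num
      rw [mul_pow]; linear_combination (-H 0 0 * H 0 0 ^ (n + 1)) * this
    rw [e4]
    have := mul_le_mul_of_nonneg_left h3 (by positivity : 0 ≤ (4 / 3 : ℚ) ^ (n + 1) * H 0 0)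
    linarith

theorem cc_lt {n : ℕ} (h : n + 1 ≤ 5) : cc n < 2 ^ (n + 1) := by
  have : n ≤ 4 := by omega
  interval_cases n <;> simp [cc] <;> norm_num

theorem ortho : ∀ (n : ℕ), n ≤ 5 → ∀ (G : Matrix (Fin n) (Fin n) ℚ), G.IsSymm → PD G →
    (∀ x y : Fin n → ℤ, ∃ z : ℤ, B G (c x) (c y) = z) → G.det = 1 →
    ∃ u : Fin n → Fin n → ℤ, ∀ i j, B G (c (u i)) (c (u j)) = if i = j then 1 else 0 := by
  intro n
  induction n with
  | zero => intro _ G _ _ _ _; exact ⟨fun i => i.elim0, fun i => i.elim0⟩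
  | succ n ih =>
    intro hn G hs hp hz hG
    obtain ⟨x, hx, hb⟩ := herm n G hs hp
    have h1 : B G (c x) (c x) = 1 := by
      obtain ⟨z, e⟩ := hz x x
      have h0 := hp _ hx.ne
      have h2 : B G (c x) (c x) < 2 := by
        by_contra h
        have := pow_le_pow_left₀ (by norm_num) (not_lt.mp h) (n + 1)
        have := cc_lt hn
        rw [hG] at hb
        linarith
      rw [e] at h0 h2 ⊢
      have h0' : 0 < z := by exact_mod_cast h0
      have h2' : z < 2 := by exact_mod_cast h2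
      have : z = 1 := by omega
      simp [this]
    obtain ⟨U, hU, rfl⟩ := hx.zero
    have hd := det_cm hU
    set H := (cm U)ᵀ * G * cm U with hH
    have hHs : H.IsSymm := symm_mul hs _
    have hHp : PD H := hp.mul (fun z => by simp [z] at hd)
    have hdet : H.det = 1 := by
      rw [hH, det_mul, det_mul, det_transpose, hG]; linear_combination hd
    have tr : ∀ x y, B G (c (U *ᵥ x)) (c (U *ᵥ y)) = B H (c x) (c y) := fun x y => by
      rw [c_mul, c_mul, ← B_mul]
    have e0 : H 0 0 = 1 := by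
      have : c (Pi.single (0 : Fin (n + 1)) (1 : ℤ)) = Pi.single 0 1 := by
        funext i; by_cases h : i = 0 <;> simp [c, h]
      rw [tr, this, B_single] at h1; exact h1
    have ec : ∀ (a : ℤ) (y : Fin n → ℤ), c (Fin.cons a y : Fin (n + 1) → ℤ) =
        Fin.cons (a : ℚ) (c y) := fun a y => by
      funext i; refine Fin.cases ?_ (fun i' => ?_) i <;> simp [c]
    have bc : ∀ (a b : ℤ) (x y : Fin n → ℤ), B H (c (Fin.cons a x : Fin (n + 1) → ℤ))
        (c (Fin.cons b y : Fin (n + 1) → ℤ)) =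
        (a + ell H (c x)) * (b + ell H (c y)) + B (schur H) (c x) (c y) := fun a b x y => by
      rw [ec, ec, B_cons hHs (by rw [e0]; norm_num), e0, one_mul]
    have c0 : c (0 : Fin n → ℤ) = 0 := by funext i; simp [c]
    have l0 : ell H (c 0) = 0 := by simp [c0, ell]
    have b0 : ∀ y, B (schur H) (c 0) y = 0 := fun y => by simp [c0, B]
    have b0' : ∀ y, B (schur H) y (c 0) = 0 := fun y => by simp [c0, B]
    have hl : ∀ y : Fin n → ℤ, ∃ z : ℤ, ell H (c y) = z := fun y => by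
      obtain ⟨z, e⟩ := hz (U *ᵥ Fin.cons 1 0) (U *ᵥ Fin.cons 0 y)
      rw [tr, bc, l0, b0] at e
      exact ⟨z, by simpa using e⟩
    choose l hl using hl
    obtain ⟨v, hv⟩ := ih (by omega) (schur H) (schur_symm hHs) (hHp.schur hHs)
      (fun x y => by
        obtain ⟨z, e⟩ := hz (U *ᵥ Fin.cons (-l x) x) (U *ᵥ Fin.cons 0 y)
        rw [tr, bc, hl x] at e
        exact ⟨z, by simpa using e⟩)
      (by have := det_schur (G := H) (by rw [e0]; norm_num); rw [hdet, e0] at this; linarith)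
    refine ⟨fun i => U *ᵥ Fin.cases (Fin.cons 1 0) (fun i' => Fin.cons (-l (v i')) (v i')) i, ?_⟩
    intro i j
    rw [tr]
    refine Fin.cases ?_ (fun i' => ?_) i <;> refine Fin.cases ?_ (fun j' => ?_) j
    · simp only [Fin.cases_zero]; rw [bc, l0, b0]; simp
    · simp only [Fin.cases_zero, Fin.cases_succ]; rw [bc, l0, b0, hl]
      simp [(Fin.succ_ne_zero j').symm]
    · simp only [Fin.cases_zero, Fin.cases_succ]; rw [bc, l0, b0', hl]; simp
    · simp only [Fin.cases_succ]; rw [bc, hl, hl, hv]; simp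

end CF.Uni
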